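import Cfsg.Agent.H254.BS.PartI
import Cfsg.Agent.Lib.Involves

/-!
# S5717, PART I: assemblies of the rows `POmega`, exceptional, sporadic (helper640)

* `asm_core` : `Strong C M m` for a matrix group `M` implies `TBase T (c * dim)` for `T = M / Z(M)` simple;
* `tbase_card` : `TBase T k` for `k ≥ |T|`; `tbase_mono`.
-/

set_option autoImplicit false

namespace Cfsg.Agent.H640.BS

open Cfsg.Agent.H917.FP Cfsg.Agent.H830.B57 Cfsg.Agent.H254.BS.PI

theorem tbase_mono {T : Type*} [Group T] {k l : ℕ} (h : k ≤ l) (hT : TBase T k) : TBase T l := by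
  intro H hH
  obtain ⟨t, ht⟩ := hT H hH
  refine ⟨fun j => if hj : (j : ℕ) < k then t ⟨j, hj⟩ else 1, fun a ha hj => ht a ha fun j => ?_⟩
  have h1 := hj ⟨j, j.2.trans_le h⟩
  simpa using h1

/-- all elements form a base -/
theorem tbase_card {T : Type*} [Group T] [Finite T] [IsSimpleGroup T] {k : ℕ} (hk : Nat.card T ≤ k) : TBase T k := by
  refine tbase_mono hk ?_
  intro H hH
  obtain ⟨e⟩ : Nonempty (Fin (Nat.card T) ≃ T) := ⟨(Finite.equivFin T).symm⟩
  refine ⟨e, fun a _ hj => ?_⟩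
  have h1 : ∀ t : T, t⁻¹ * a t ∈ H := fun t => by
    have := hj (e.symm t)
    rwa [Equiv.apply_symm_apply] at this
  have h2 : ∀ t : T, t⁻¹ * a t ∈ H.normalCore := by
    intro t u
    -- `u (t⁻¹ a(t)) u⁻¹`
    have h3 := h1 (t * u⁻¹)
    have h4 := h1 u⁻¹
    have e1 : u * (t⁻¹ * a t) * u⁻¹ = ((t * u⁻¹)⁻¹ * a (t * u⁻¹)) * (u⁻¹⁻¹ * a u⁻¹)⁻¹ := by
      rw [map_mul]; group
    rw [e1]
    exact H.mul_mem h3 (H.inv_mem h4)
  have h3 : H.normalCore = ⊥ := by
    rcases (inferInstance : H.normalCore.Normal).eq_bot_or_eq_top with h | h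
    · exact h
    · exfalso
      apply hH
      rw [eq_top_iff, ← h]
      exact H.normalCore_le
  ext t
  have h4 := h2 t
  rw [h3, Subgroup.mem_bot, inv_mul_eq_one] at h4
  rw [← h4]
  rfl

theorem tbase_of_comm {T : Type*} [Group T] [IsSimpleGroup T] (hc : ∀ a b : T, a * b = b * a) {k : ℕ} (hk : 0 < k) :
    TBase T k := by
  refine tbase_mono (Nat.succ_le_of_lt hk) ?_
  intro H hH
  have hnorm : ∀ K : Subgroup T, K = ⊥ ∨ K = ⊤ := fun K =>
    Subgroup.Normal.eq_bot_or_eq_top ⟨fun n hn g => by rw [hc g n, mul_inv_cancel_right]; exact hn⟩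
  obtain ⟨g, hg⟩ := exists_ne (1 : T)
  refine ⟨fun _ => g, fun a _ hj => ?_⟩
  have h1 := hj 0
  rw [(hnorm H).resolve_right hH, Subgroup.mem_bot, inv_mul_eq_one] at h1
  have h2 : Subgroup.zpowers g = ⊤ := by
    refine (hnorm _).resolve_left fun h => hg ?_
    exact Subgroup.zpowers_eq_bot.1 h
  ext t
  have h3 : t ∈ Subgroup.zpowers g := by rw [h2]; exact Subgroup.mem_top t
  obtain ⟨n, rfl⟩ := Subgroup.mem_zpowers_iff.1 h3
  rw [map_zpow, ← h1]
  rfl

/-- fixed point ratios through a surjection -/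
theorem fpr_comp {M T : Type*} [Group M] [Group T] (φ : M →* T) (Ω : Type*) [MulAction T Ω] (y : M) :
    @fpr M _ Ω (MulAction.compHom Ω φ) {y} = fpr Ω {φ y} := by
  unfold fpr
  congr 2
  refine Nat.card_congr (Equiv.subtypeEquivRight fun w => ?_)
  simp only [Set.mem_singleton_iff, forall_eq]
  exact Iff.rfl

theorem one_sub_inv_mono {C C' : ℕ} (hC : 0 < C) (h : C ≤ C') : (1 : ℝ) - 1 / C ≤ 1 - 1 / C' := by
  have h1 : (0 : ℝ) < C := by exact_mod_cast hC
  have h2 : (C : ℝ) ≤ C' := by exact_mod_cast h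
  have h3 := one_div_le_one_div_of_le h1 h2
  linarith

/-- **from the strong bound for `M` to bases for `T = M / Z(M)`** -/
theorem asm_core (hN1 : T_tbase_of_strong) (hcount : T_count) (hsupp : T_supp_pos) (C : ℕ) (hC : 0 < C) :
    ∃ c : ℕ, 0 < c ∧ ∀ (F : Type) [Field F] [Fintype F] (ι : Type) [Fintype ι] [DecidableEq ι] (M : Type) [Group M]
      (m : M → Matrix ι ι F), Function.Injective m →
      (∀ x : M, (∃ μ : F, m x = Matrix.scalar ι μ) → x ∈ Subgroup.center M) → 0 < Fintype.card ι → Strong C M m →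
      ∀ (T : Type) [Group T] [Finite T] [IsSimpleGroup T], Nonempty (T ≃* M ⧸ Subgroup.center M) →
        TBase T (c * Fintype.card ι) := by
  obtain ⟨c, hc⟩ := hN1 (C + 2)
  refine ⟨c + 1, Nat.succ_pos c, ?_⟩
  intro F _ _ ι _ _ M _ m hm hcen hι hS T _ _ _ ⟨e⟩
  have hpos : 0 < (c + 1) * Fintype.card ι := Nat.mul_pos (Nat.succ_pos c) hι
  by_cases hcomm : ∀ a b : T, a * b = b * a
  · exact tbase_of_comm hcomm hpos
  push Not at hcomm
  refine tbase_mono (Nat.mul_le_mul_right _ (Nat.le_succ c)) ?_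
  -- the lift
  let φ : M →* T := e.symm.toMonoidHom.comp (QuotientGroup.mk' (Subgroup.center M))
  have hφ : Function.Surjective φ := e.symm.surjective.comp (QuotientGroup.mk'_surjective _)
  obtain ⟨L, hL⟩ : ∃ L : T → M, ∀ x, φ (L x) = x := ⟨Function.surjInv hφ, Function.surjInv_eq hφ⟩
  have hLc : ∀ x : T, x ≠ 1 → L x ∉ Subgroup.center M := by
    intro x hx h
    apply hx
    rw [← hL x]
    show e.symm (QuotientGroup.mk' (Subgroup.center M) (L x)) = 1
    rw [QuotientGroup.mk'_apply, (QuotientGroup.eq_one_iff _).2 h, map_one]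
  have hLi : Function.Injective L := Function.LeftInverse.injective hL
  have hq : 2 ≤ Fintype.card F := Fintype.one_lt_card
  refine hc (Fintype.card F) (Fintype.card ι) hq hι T hcomm (fun x => supp (m (L x))) ?_ ?_ ?_ ?_
  · intro x hx
    by_contra h0
    exact hLc x hx (hcen _ (hsupp F ι _ (by omega)))
  · intro s
    have h1 := Nat.card_le_card_of_injective
      (fun x : {x : T // supp (m (L x)) = s} => (⟨m (L x.1), x.2⟩ : {A : Matrix ι ι F // supp A = s}))
      (fun x y h => Subtype.ext (hLi (hm (congrArg Subtype.val h))))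
    refine h1.trans ((hcount F ι s).trans (Nat.pow_le_pow_right (by omega) ?_))
    have h2 : 2 * Fintype.card ι * s + 1 ≤ 2 * Fintype.card ι * (s + 1) := by
      rw [Nat.mul_add]; omega
    refine h2.trans (Nat.mul_le_mul_right _ (Nat.mul_le_mul_right _ (by omega)))
  · intro x hx Ω _ _ hΩ
    let _ : MulAction M Ω := MulAction.compHom Ω φ
    have h1 := hS.fix (L x) (hLc x hx) Ω (fun ω => by
      obtain ⟨g, hg⟩ := hΩ ω
      refine ⟨L g, fun h => hg ?_⟩
      have h2 : φ (L g) • ω = ω := h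
      rwa [hL] at h2)
    have h3 : fpr Ω {L x} = fpr Ω {x} := by
      have := fpr_comp φ Ω (L x)
      rw [hL] at this
      exact this
    rw [h3] at h1
    have h0 := fpr_nonneg Ω ({x} : Set T)
    have h4 := fpr_le_one Ω ({x} : Set T)
    have h5 : fpr Ω {x} ^ (C + 2) ≤ fpr Ω {x} ^ C := pow_le_pow_of_le_one h0 h4 (by omega)
    calc fpr Ω {x} ^ (C + 2) * (Fintype.card F : ℝ) ^ supp (m (L x))
        ≤ fpr Ω {x} ^ C * (Fintype.card F : ℝ) ^ supp (m (L x)) := mul_le_mul_of_nonneg_right h5 (by positivity)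
      _ ≤ C := h1
      _ ≤ ((C + 2 : ℕ) : ℝ) := by push_cast; linarith
  · intro x hx Ω _ _ hΩ
    let _ : MulAction M Ω := MulAction.compHom Ω φ
    have h1 := hS.triv (L x) (hLc x hx) Ω (fun ω => by
      obtain ⟨g, hg⟩ := hΩ ω
      refine ⟨L g, fun h => hg ?_⟩
      have h2 : φ (L g) • ω = ω := h
      rwa [hL] at h2)
    have h3 : fpr Ω {L x} = fpr Ω {x} := by
      have := fpr_comp φ Ω (L x)
      rw [hL] at this
      exact this
    rw [h3] at h1
    exact h1.trans (one_sub_inv_mono hC (by omega))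

/-! ### Orthogonal groups -/

theorem omMat_mul {ι : Type} [Fintype ι] [DecidableEq ι] {F : Type} [Field F] (Q : (ι → F) → F)
    (x y : Cfsg.Omega F Q) : omMat Q (x * y) = omMat Q x * omMat Q y := rfl

theorem omMat_inj {ι : Type} [Fintype ι] [DecidableEq ι] {F : Type} [Field F] (Q : (ι → F) → F) :
    Function.Injective (omMat Q) := by
  intro x y h
  apply Subtype.ext
  apply Subtype.ext
  apply Units.ext
  exact h

theorem omMat_central {ι : Type} [Fintype ι] [DecidableEq ι] {F : Type} [Field F] (Q : (ι → F) → F)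
    (x : Cfsg.Omega F Q) (hx : ∃ μ : F, omMat Q x = Matrix.scalar ι μ) : x ∈ Subgroup.center (Cfsg.Omega F Q) := by
  obtain ⟨μ, hμ⟩ := hx
  rw [Subgroup.mem_center_iff]
  intro y
  apply omMat_inj
  rw [omMat_mul, omMat_mul, hμ]
  exact ((Matrix.scalar_commute μ (fun r => mul_comm _ _) (omMat Q y)).eq).symm

theorem not_involves_congr {H T T' : Type*} [Group H] [Group T] [Group T'] (e : T ≃* T') (h : ¬ Cfsg.Involves H T) :
    ¬ Cfsg.Involves H T' := fun h' => h (Lib.Involves.involves_iff.1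
      ((Lib.Involves.congr_left e).2 (Lib.Involves.involves_iff.2 h')))

theorem asm_pOdd : Asm_POdd := by
  intro hT hN1 hcount hsupp hA _
  obtain ⟨C, hC, hT⟩ := hT
  obtain ⟨c, hc0, hc⟩ := asm_core hN1 hcount hsupp C hC
  obtain ⟨A, hA⟩ := hA
  refine ⟨c * (3 * (A + 1)), by positivity, ?_⟩
  intro d hd T _ _ _ hTn hinv
  obtain ⟨F, _, _, m, hm, hodd, ⟨e⟩⟩ := hTn
  have hmd : m ≤ A * d := hA F m d hd hodd (not_involves_congr e hinv)
  refine tbase_mono ?_ (hc F _ _ (omMat (Cfsg.quadFormOdd m F)) (omMat_inj _) (omMat_central _) ?_ (hT F m hm hodd) T ⟨e⟩)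
  · rw [mul_assoc]
    refine Nat.mul_le_mul_left _ ?_
    rw [Fintype.card_sum, Fintype.card_sum, Fintype.card_fin, Fintype.card_unit]
    nlinarith
  · rw [Fintype.card_sum, Fintype.card_sum, Fintype.card_fin, Fintype.card_unit]
    omega

theorem asm_pPlus : Asm_PPlus := by
  intro hT hN1 hcount hsupp hA _
  obtain ⟨C, hC, hT⟩ := hT
  obtain ⟨c, hc0, hc⟩ := asm_core hN1 hcount hsupp C hC
  obtain ⟨A, hA⟩ := hA
  refine ⟨c * (3 * (A + 1)), by positivity, ?_⟩
  intro d hd T _ _ _ hTn hinv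
  obtain ⟨F, _, _, m, hm, ⟨e⟩⟩ := hTn
  have hmd : m ≤ A * d := hA F m d hd (not_involves_congr e hinv)
  refine tbase_mono ?_ (hc F _ _ (omMat (Cfsg.quadFormPlus m F)) (omMat_inj _) (omMat_central _) ?_ (hT F m hm) T ⟨e⟩)
  · rw [mul_assoc]
    refine Nat.mul_le_mul_left _ ?_
    rw [Fintype.card_sum, Fintype.card_fin]
    nlinarith
  · rw [Fintype.card_sum, Fintype.card_fin]
    omega

theorem asm_pMinus : Asm_PMinus := by
  intro hT hN1 hcount hsupp hA _
  obtain ⟨C, hC, hT⟩ := hT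
  obtain ⟨c, hc0, hc⟩ := asm_core hN1 hcount hsupp C hC
  obtain ⟨A, hA⟩ := hA
  refine ⟨c * (3 * (A + 1)), by positivity, ?_⟩
  intro d hd T _ _ _ hTn hinv
  obtain ⟨F, _, _, m, a, b, hm, hab, ⟨e⟩⟩ := hTn
  have hmd : m - 1 ≤ A * d := hA F (m - 1) d a b hd (not_involves_congr e hinv)
  refine tbase_mono ?_ (hc F _ _ (omMat (Cfsg.quadFormMinus (m - 1) F a b)) (omMat_inj _) (omMat_central _) ?_
    (hT F m a b hm hab) T ⟨e⟩)
  · rw [mul_assoc]
    refine Nat.mul_le_mul_left _ ?_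
    rw [Fintype.card_sum, Fintype.card_sum, Fintype.card_fin, Fintype.card_fin]
    nlinarith
  · rw [Fintype.card_sum, Fintype.card_sum, Fintype.card_fin, Fintype.card_fin]
    omega

/-! ### Exceptional groups -/

theorem fix_of_pow {C q : ℕ} (hC : 0 < C) (hq : C < q) {f : ℝ} (h0 : 0 ≤ f) (h : f ^ C * q ≤ C) :
    f ≤ 1 - 1 / ((C * (C + 1) : ℕ) : ℝ) := by
  by_contra hcon
  push Not at hcon
  have hC' : (1 : ℝ) ≤ C := by exact_mod_cast hC
  have hq' : (C : ℝ) + 1 ≤ q := by exact_mod_cast hq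
  set δ : ℝ := 1 / ((C * (C + 1) : ℕ) : ℝ) with hδ
  have hden : (0 : ℝ) < ((C * (C + 1) : ℕ) : ℝ) := by push_cast; positivity
  have hδ1 : δ ≤ 1 := by
    rw [hδ, div_le_one hden]
    push_cast
    nlinarith
  have hδ0 : 0 < δ := by rw [hδ]; positivity
  have hb := one_add_mul_le_pow (a := -δ) (by linarith) C
  have h1 : (1 - δ) ^ C < f ^ C := by
    have := pow_lt_pow_left₀ hcon (by linarith) (Nat.pos_iff_ne_zero.1 hC)
    exact this
  have h2 : (C : ℝ) * δ = 1 / (C + 1) := by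
    rw [hδ]; push_cast; field_simp
  have h3 : 1 - 1 / ((C : ℝ) + 1) ≤ (1 - δ) ^ C := by
    have e : 1 + (C : ℝ) * -δ = 1 - 1 / (C + 1) := by rw [mul_neg, h2]; ring
    rw [e] at hb
    rw [sub_eq_add_neg 1 δ]
    exact hb
  have h4 : 1 - 1 / ((C : ℝ) + 1) < f ^ C := lt_of_le_of_lt h3 h1
  have h5 : (1 - 1 / ((C : ℝ) + 1)) * (C + 1) = C := by field_simp; ring
  have h6 : (C : ℝ) < f ^ C * q := by
    calc (C : ℝ) = (1 - 1 / ((C : ℝ) + 1)) * (C + 1) := h5.symm
      _ < f ^ C * (C + 1) := mul_lt_mul_of_pos_right h4 (by linarith)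
      _ ≤ f ^ C * q := mul_le_mul_of_nonneg_left hq' (by positivity)
  linarith

theorem asm_exc : Asm_Exc := by
  intro hT hN1 _
  obtain ⟨C, hC, hT⟩ := hT
  have hCC : C ≤ C * (C + 1) := Nat.le_mul_of_pos_right C (Nat.succ_pos C)
  obtain ⟨c, hc⟩ := hN1 (C * (C + 1))
  refine ⟨c + C ^ C + 1, Nat.succ_pos _, ?_⟩
  intro d hd T _ _ _ hTn _
  have hd0 : 1 ≤ d := by omega
  by_cases hcomm : ∀ a b : T, a * b = b * a
  · exact tbase_of_comm hcomm (Nat.mul_pos (Nat.succ_pos _) hd0)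
  push Not at hcomm
  obtain ⟨q, hq2, hcard, hW⟩ := hT T hTn
  rcases Nat.lt_or_ge C q with hq | hq
  · refine tbase_mono (k := c * 1) ?_ ?_
    · calc c * 1 ≤ (c + C ^ C + 1) * 1 := Nat.mul_le_mul_right _ (by omega)
        _ ≤ (c + C ^ C + 1) * d := Nat.mul_le_mul_left _ hd0
    have hZ : ∀ x : T, x ≠ 1 → x ∉ Subgroup.center T := by
      intro x hx h
      rcases (inferInstance : (Subgroup.center T).Normal).eq_bot_or_eq_top with h1 | h1
      · rw [h1, Subgroup.mem_bot] at h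
        exact hx h
      · obtain ⟨a, b, hab⟩ := hcomm
        apply hab
        have h2 : b ∈ Subgroup.center T := by rw [h1]; exact Subgroup.mem_top b
        exact Subgroup.mem_center_iff.1 h2 a
    refine hc q 1 hq2 le_rfl T hcomm (fun _ => 1) (fun _ _ => le_rfl) ?_ ?_ ?_
    · intro s
      have h1 : Nat.card {x : T // 1 = s} ≤ Nat.card T :=
        Nat.card_le_card_of_injective _ Subtype.val_injective
      refine h1.trans (hcard.trans (Nat.pow_le_pow_right (by omega) ?_))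
      rw [mul_one]
      exact hCC.trans (Nat.le_mul_of_pos_right _ (Nat.succ_pos s))
    · intro x hx Ω _ _ hΩ
      have h1 := hW x (hZ x hx) Ω hΩ
      have h0 := fpr_nonneg Ω ({x} : Set T)
      have h4 := fpr_le_one Ω ({x} : Set T)
      have h5 : fpr Ω {x} ^ (C * (C + 1)) ≤ fpr Ω {x} ^ C := pow_le_pow_of_le_one h0 h4 hCC
      calc fpr Ω {x} ^ (C * (C + 1)) * (q : ℝ) ^ 1 ≤ fpr Ω {x} ^ C * (q : ℝ) ^ 1 :=
            mul_le_mul_of_nonneg_right h5 (by positivity)
        _ = fpr Ω {x} ^ C * (q : ℝ) := by rw [pow_one]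
        _ ≤ C := h1
        _ ≤ ((C * (C + 1) : ℕ) : ℝ) := by exact_mod_cast hCC
    · intro x hx Ω _ _ hΩ
      exact fix_of_pow hC hq (fpr_nonneg Ω _) (hW x (hZ x hx) Ω hΩ)
  · refine tbase_card ?_
    calc Nat.card T ≤ q ^ C := hcard
      _ ≤ C ^ C := Nat.pow_le_pow_left hq C
      _ ≤ (c + C ^ C + 1) * 1 := by omega
      _ ≤ (c + C ^ C + 1) * d := Nat.mul_le_mul_left _ hd0

/-! ### Sporadic groups -/

/-- the orders of the finite groups with `P` are bounded -/
def Bd (P : ∀ (T : Type) [Group T], Prop) : Prop :=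
  ∃ n : ℕ, ∀ (T : Type) [Group T] [Finite T], P T → Nat.card T ≤ n

theorem bd_or {P Q : ∀ (T : Type) [Group T], Prop} (hP : Bd P) (hQ : Bd Q) : Bd (fun T _ => P T ∨ Q T) := by
  obtain ⟨n, hn⟩ := hP
  obtain ⟨m, hm⟩ := hQ
  refine ⟨max n m, fun T _ _ h => ?_⟩
  rcases h with h | h
  · exact (hn T h).trans (le_max_left _ _)
  · exact (hm T h).trans (le_max_right _ _)

theorem bd_iso (X : Type) [Group X] : Bd (fun T _ => Nonempty (T ≃* X)) :=
  ⟨Nat.card X, fun _ _ _ ⟨e⟩ => (Nat.card_congr e.toEquiv).le⟩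

open Cfsg.Spor in
theorem bd_j3 : Bd (fun T _ => Cfsg.Spor.IsoJ3 T) := by
  refine ⟨(4 ^ Fintype.card F9) ^ Fintype.card F9, ?_⟩
  rintro T _ _ ⟨F, _, _, ω, hF, -, ⟨e⟩⟩
  have h1 : Nat.card (threeJ3 F ω) ≤ (4 ^ Fintype.card F9) ^ Fintype.card F9 := by
    have h2 := Nat.card_le_card_of_injective (fun g : threeJ3 F ω => ((g : GL F9 F) : Matrix F9 F9 F))
      (fun a b h => Subtype.ext (Units.ext h))
    refine h2.trans (le_of_eq ?_)
    rw [Matrix, Nat.card_fun, Nat.card_fun, Nat.card_eq_fintype_card, Nat.card_eq_fintype_card, hF]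
  rw [Nat.card_congr e.toEquiv]
  exact (Nat.card_le_card_of_surjective (QuotientGroup.mk : threeJ3 F ω → J3 F ω) QuotientGroup.mk_surjective).trans h1

theorem bd_spor : Bd (fun T _ => Cfsg.IsSporadicGroup T) := by
  unfold Cfsg.IsSporadicGroup
  repeat' apply bd_or
  all_goals first | exact bd_iso _ | exact bd_j3

theorem asm_spor : Asm_Spor := by
  intro _ _
  obtain ⟨n, hn⟩ := bd_spor
  refine ⟨n + 1, Nat.succ_pos n, ?_⟩
  intro d hd T _ _ _ hTn _
  refine tbase_card ((hn T hTn).trans ?_)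
  calc n ≤ (n + 1) * 1 := by omega
    _ ≤ (n + 1) * d := Nat.mul_le_mul_left _ (by omega)

end Cfsg.Agent.H640.BS
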